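import Mathlib
import Cfsg.Prelude.Def_Solvable
import Cfsg.Prelude.Def_CaseTheorems

/-!
# S3390 (project FIX2, helper95): interface

`G` acts on `Ω`, every non-identity element fixes at most two points, `S` is a `2`-subgroup,
`T = S ∩ G_α`.  Each `Pkg…` below is a `Prop`; a package is delivered as a theorem of that type.
Notation of the paper proof: `β` is the second fixed point of `T`, `t ∈ S` swaps `α` and `β`.
-/

set_option autoImplicit false

namespace Cfsg.Agent.Lib.Helper95.Fix2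

universe u v

/-- Every non-identity element of `S` fixes at most two points of `Ω`. -/
def Fix2On {G : Type u} [Group G] (Ω : Type v) [MulAction G Ω] (S : Subgroup G) : Prop :=
  ∀ g ∈ S, g ≠ 1 → ∀ a b c : Ω, g • a = a → g • b = b → g • c = c → a = b ∨ a = c ∨ b = c

/-- The local data: `β ≠ α`, `t ∈ S` swaps `α` and `β`, an element of `S` fixes `α` iff it fixes
`β`, and a non-identity element of `S` fixing `α` fixes no point other than `α`, `β`. -/
structure Loc {G : Type u} [Group G] {Ω : Type v} [MulAction G Ω] (S : Subgroup G) (α β : Ω)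
    (t : G) : Prop where
  ne : β ≠ α
  tS : t ∈ S
  tα : t • α = β
  tβ : t • β = α
  ab : ∀ x ∈ S, x • α = α → x • β = β
  ba : ∀ x ∈ S, x • β = β → x • α = α
  fix : ∀ x ∈ S, x ≠ 1 → x • α = α → ∀ ω : Ω, x • ω = ω → ω = α ∨ ω = β

/-- **[LOC]** If `1 < T < S` then the local data exist (normalizer growth in the `2`-group `S`). -/
def PkgLoc : Prop :=
  ∀ {G : Type u} [Group G] [Finite G] {Ω : Type v} [MulAction G Ω] (S : Subgroup G) (α : Ω),
    IsPGroup 2 ↥S → Fix2On Ω S → S ⊓ MulAction.stabilizer G α ≠ ⊥ →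
    ¬ S ≤ MulAction.stabilizer G α → ∃ (β : Ω) (t : G), Loc S α β t

/-- **[B]** If some element of `S` moves `α` outside `{α, β}` then `|T| = 2` and `T = ⟨x⟩` with
`|C_S(x)| = 4 < |S|`. -/
def PkgB : Prop :=
  ∀ {G : Type u} [Group G] [Finite G] {Ω : Type v} [MulAction G Ω] (S : Subgroup G) (α β : Ω)
    (t : G), IsPGroup 2 ↥S → Fix2On Ω S → S ⊓ MulAction.stabilizer G α ≠ ⊥ → Loc S α β t →
    (∃ s ∈ S, s • α ≠ α ∧ s • α ≠ β) →
    Nat.card ↥(S ⊓ MulAction.stabilizer G α) = 2 ∧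
      ∃ x : ↥S, orderOf x = 2 ∧ Nat.card ↥(Subgroup.centralizer ({x} : Set ↥S)) = 4 ∧
        4 < Nat.card ↥S

/-- **[A1]** If `S` preserves `{α, β}` and some non-identity element of `S` fixes a third point,
then `S` has an involution `x` with `|C_S(x)| = 4`, and if `|S| = 4` a second involution. -/
def PkgA1 : Prop :=
  ∀ {G : Type u} [Group G] [Finite G] {Ω : Type v} [MulAction G Ω] (S : Subgroup G) (α β : Ω)
    (t : G), IsPGroup 2 ↥S → Fix2On Ω S → S ⊓ MulAction.stabilizer G α ≠ ⊥ → Loc S α β t →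
    (∀ s ∈ S, s • α = α ∨ s • α = β) →
    (∃ ω : Ω, ω ≠ α ∧ ω ≠ β ∧ ∃ s ∈ S, s ≠ 1 ∧ s • ω = ω) →
    ∃ x : ↥S, orderOf x = 2 ∧ Nat.card ↥(Subgroup.centralizer ({x} : Set ↥S)) = 4 ∧
      (Nat.card ↥S = 4 → ∃ y : ↥S, orderOf y = 2 ∧ y ≠ x)

/-- **[V4]** A group of order 4 with two distinct involutions is `DihedralGroup 2`. -/
def PkgV4 : Prop :=
  ∀ {S : Type u} [Group S] [Finite S], Nat.card S = 4 → ∀ x y : S, orderOf x = 2 →
    orderOf y = 2 → y ≠ x → Nonempty (S ≃* DihedralGroup 2)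

/-- **[ORB]** If `S` preserves `{α, β}` and acts semiregularly off it: `|S : T| = 2`, `|S| ≥ 4`,
the `S`-orbit of `α` has two points and all other `S`-orbits are regular. -/
def PkgOrb : Prop :=
  ∀ {G : Type u} [Group G] [Finite G] {Ω : Type v} [MulAction G Ω] (S : Subgroup G) (α β : Ω)
    (t : G), S ⊓ MulAction.stabilizer G α ≠ ⊥ → Loc S α β t →
    (∀ s ∈ S, s • α = α ∨ s • α = β) →
    (S ⊓ MulAction.stabilizer G α).relIndex S = 2 ∧ 4 ≤ Nat.card ↥S ∧
      Nat.card ↥(MulAction.orbit ↥S α) = 2 ∧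
      ((∀ ω : Ω, ω ≠ α → ω ≠ β → ∀ s ∈ S, s • ω = ω → s = 1) →
        ∀ ω' : Ω, ω' ∉ MulAction.orbit ↥S α →
          Nat.card ↥(MulAction.orbit ↥S ω') = Nat.card ↥S)

/-- **[TR]** The transfer of a `G`-fusion-invariant homomorphism `φ : S → ℤˣ` restricts to
`φ ^ |G : S|` on `S`. -/
def PkgTr : Prop :=
  ∀ {G : Type u} [Group G] [Finite G] (S : Subgroup G) (φ : ↥S →* ℤˣ),
    (∀ (y : ↥S) (x : G) (h : x⁻¹ * (y : G) * x ∈ S), φ ⟨x⁻¹ * (y : G) * x, h⟩ = φ y) →
    ∀ s : ↥S, MonoidHom.transfer φ (s : G) = φ s ^ S.index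

/-- **[A2N]** If `S` (of odd index) preserves `{α, β}` and the elements of `S` moving `α` have no
fixed point, then `G` has a normal subgroup `N` of index 2 containing every element of `G` with a
fixed point, and `t ∉ N`. -/
def PkgA2N : Prop :=
  PkgTr.{u} →
  ∀ {G : Type u} [Group G] [Finite G] {Ω : Type v} [MulAction G Ω] (S : Subgroup G) (α β : Ω)
    (t : G), Odd S.index → Loc S α β t → (∀ s ∈ S, s • α = α ∨ s • α = β) →
    (∀ s ∈ S, s • α = β → ∀ ω : Ω, s • ω ≠ ω) →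
    ∃ N : Subgroup G, N.Normal ∧ N.index = 2 ∧ (∀ g : G, (∃ ω : Ω, g • ω = ω) → g ∈ N) ∧ t ∉ N

/-- **[FROB]** The point stabilizer is a Frobenius complement in `N`. -/
def PkgFrob : Prop :=
  ∀ {G : Type u} [Group G] [Finite G] {Ω : Type v} [Finite Ω] [MulAction G Ω] (S : Sylow 2 G)
    (N : Subgroup G) (α β : Ω) (t : G), MulAction.IsPretransitive G Ω →
    Fix2On Ω (⊤ : Subgroup G) → N.Normal → N.index = 2 →
    (∀ g : G, (∃ ω : Ω, g • ω = ω) → g ∈ N) → t ∉ N → t • α = β →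
    (∃ ω : Ω, ω ≠ α ∧ ω ≠ β) →
    (∃ x ∈ (S : Subgroup G), x ≠ 1 ∧ x • α = α) →
    (∀ x ∈ (S : Subgroup G), x ≠ 1 → (∃ ω : Ω, x • ω = ω) → x • α = α ∧ x • β = β) →
    ∃ H : Subgroup ↥N, Cfsg.IsFrobeniusComplement H

end Cfsg.Agent.Lib.Helper95.Fix2
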