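import Mathlib
import Cfsg.Agent.Lib.Helper95.Fix2.Defs

/-!
# S3390 (project FIX2), package [LOC] (helper95): the local data `β`, `t`
-/

set_option autoImplicit false

namespace Cfsg.Agent.Lib.Helper95.Fix2

universe u v

/-- **[LOC]** -/
theorem pkgLoc : PkgLoc.{u, v} := by
  intro G _ _ Ω _ S α hp f2 h1 h2
  have : Fact (Nat.Prime 2) := ⟨Nat.prime_two⟩
  obtain ⟨T', hT'⟩ : ∃ T' : Subgroup ↥S, T' = (MulAction.stabilizer G α).subgroupOf S := ⟨_, rfl⟩
  have hmem : ∀ x : ↥S, x ∈ T' ↔ (x : G) • α = α := by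
    intro x
    rw [hT', Subgroup.mem_subgroupOf, MulAction.mem_stabilizer_iff]
  have hT'top : T' < ⊤ := by
    rw [lt_top_iff_ne_top]
    intro h
    apply h2
    intro s hs
    have h3 : (⟨s, hs⟩ : ↥S) ∈ T' := h ▸ Subgroup.mem_top _
    exact MulAction.mem_stabilizer_iff.mpr ((hmem _).mp h3)
  have hnil : Group.IsNilpotent ↥S := hp.isNilpotent
  have hnc := Group.normalizerCondition_of_isNilpotent (G := ↥S) T' hT'top
  obtain ⟨t', htn, htT⟩ := SetLike.exists_of_lt hnc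
  have hkey : ∀ x ∈ S, ((t' : G)⁻¹ * x * (t' : G)) • α = α ↔ x • α = α := by
    intro x hx
    have h3 := (Subgroup.mem_normalizer_iff.mp htn) (t'⁻¹ * ⟨x, hx⟩ * t')
    rw [hmem, hmem] at h3
    have h4 : ((t' * (t'⁻¹ * ⟨x, hx⟩ * t') * t'⁻¹ : ↥S) : G) = x := by
      push_cast
      group
    have h5 : ((t'⁻¹ * ⟨x, hx⟩ * t' : ↥S) : G) = (t' : G)⁻¹ * x * (t' : G) := by
      push_cast
      rfl
    rw [h4, h5] at h3
    exact h3
  have hne : (t' : G) • α ≠ α := fun h => htT ((hmem t').mpr h)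
  have hab : ∀ x ∈ S, x • α = α → x • ((t' : G) • α) = (t' : G) • α := by
    intro x hx hxα
    have h3 := (hkey x hx).mpr hxα
    rw [mul_smul, mul_smul, inv_smul_eq_iff] at h3
    exact h3
  have hba : ∀ x ∈ S, x • ((t' : G) • α) = (t' : G) • α → x • α = α := by
    intro x hx hxβ
    apply (hkey x hx).mp
    rw [mul_smul, mul_smul, inv_smul_eq_iff]
    exact hxβ
  have hfix : ∀ x ∈ S, x ≠ 1 → x • α = α → ∀ ω : Ω, x • ω = ω → ω = α ∨ ω = (t' : G) • α := by
    intro x hx hx1 hxα ω hxω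
    rcases f2 x hx hx1 α ((t' : G) • α) ω hxα (hab x hx hxα) hxω with h | h | h
    · exact absurd h.symm hne
    · exact Or.inl h.symm
    · exact Or.inr h.symm
  obtain ⟨⟨z, hzmem⟩, hz1⟩ := (Subgroup.ne_bot_iff_exists_ne_one).mp h1
  have hzS : z ∈ S := hzmem.1
  have hzα : z • α = α := MulAction.mem_stabilizer_iff.mp hzmem.2
  have hz1' : z ≠ 1 := by
    intro h
    apply hz1
    exact Subtype.ext h
  have htβ : (t' : G) • ((t' : G) • α) = α := by
    have h3 : z • ((t' : G) • ((t' : G) • α)) = (t' : G) • ((t' : G) • α) := by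
      have h4 : ((t' : G)⁻¹ * z * (t' : G)) • ((t' : G) • α) = (t' : G) • α :=
        hab _ (Subgroup.mul_mem _ (Subgroup.mul_mem _ (Subgroup.inv_mem _ t'.2) hzS) t'.2)
          ((hkey z hzS).mpr hzα)
      rw [mul_smul, mul_smul, inv_smul_eq_iff] at h4
      exact h4
    rcases hfix z hzS hz1' hzα _ h3 with h | h
    · exact h
    · exact absurd (smul_left_cancel _ h) hne
  exact ⟨(t' : G) • α, (t' : G), ⟨hne, t'.2, rfl, htβ, hab, hba, hfix⟩⟩

end Cfsg.Agent.Lib.Helper95.Fix2
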